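import Groth.Agent.Gaga.H974.Analytify

/-!
# Stalks of the analytification of a sheaf of modules

For `M : X.Modules` and `x : An.Pts X`:
* `stk M x` / `anStk N x`: the stalks `M_{pt x}` and `N_x` (`N : An.AnMod X`), modules over
  `O_{X, pt x}` and `O_{X^an, x}`;
* `can M x : M_{pt x} →+ (M^an)_x`, `can_germ` (value on germs: germ of the unit section `anSec`),
  `can_smul`, `can_natural`;
* `equiv M x : O_{X^an,x} ⊗[O_{X, pt x}] M_{pt x} ≃ₗ[O_{X^an,x}] (M^an)_x`, `equiv_tmul`;
* `span_range_can`, `exists_local_sum`: sections of `M^an` are locally finite sums `∑ h_i • (m_i)^an`.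
-/

set_option autoImplicit false
set_option linter.style.haveILetI false
set_option linter.unusedVariables false
open CategoryTheory AlgebraicGeometry Topology TopologicalSpace Opposite CategoryTheory.Limits
open TensorProduct

noncomputable section

namespace Groth.Agent.Gaga.H974.AnStalk

open Groth.Agent.Gaga.H974.RSky Groth.Agent.Gaga.H974.RPull Groth.Agent.Gaga.H974.RExact
open Groth.Agent.Gaga.H974.Analytify

variable {X : Scheme.{0}} [X.Over An.SC]

/-- The abelian presheaf underlying a sheaf of `O_{X^an}`-modules. -/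
abbrev anPsh (N : An.AnMod X) : TopCat.Presheaf Ab.{0} (An.top X) := pshS (A := An.hol X) N

/-- The stalk of a sheaf of `O_{X^an}`-modules, a module over `(An.anSpace X).presheaf.stalk x`. -/
abbrev anStk (N : An.AnMod X) (x : An.Pts X) : Ab.{0} := (anPsh N).stalk x

/-- The stalk of a sheaf of modules on `X` at (the closed point given by) a complex point. -/
abbrev schStk (M : X.Modules) (x : An.Pts X) : Ab.{0} := M.presheaf.stalk x.pt

instance (N : An.AnMod X) (x : An.Pts X) : Module ((An.anSpace X).presheaf.stalk x) (anStk N x) :=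
  inferInstanceAs (Module ((An.hol X).presheaf.stalk x) ((pshS (A := An.hol X) N).stalk x))

instance (M : X.Modules) (x : An.Pts X) : Module (X.presheaf.stalk x.pt) (schStk M x) :=
  inferInstanceAs (Module (X.sheaf.presheaf.stalk x.pt) ((pshS (A := X.sheaf) M).stalk x.pt))

/-- The analytic section `m^an` attached to a section `m` of `M` (the unit of the adjunction). -/
def anSec {M : X.Modules} {U : X.Opens} (m : Γ(M, U)) :
    (anPsh ((An.analytify X).obj M)).obj (op ((An.baseF X).obj U)) :=
  ((An.analytifyAdj X).unit.app M).val.app (op U) m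

/-- The canonical additive map `M_{pt x} → (M^an)_x`. -/
def can (M : X.Modules) (x : An.Pts X) : schStk M x →+ anStk ((An.analytify X).obj M) x :=
  haveI := An.baseF_isContinuous X
  canAdd (B := X.sheaf) (A := An.hol X) (An.ptTop X) (anC X) M x

theorem can_germ (M : X.Modules) (x : An.Pts X) (U : X.Opens) (hU : x.pt ∈ U) (m : Γ(M, U)) :
    can M x (M.presheaf.germ U x.pt hU m) =
      (anPsh ((An.analytify X).obj M)).germ ((An.baseF X).obj U) x hU (anSec m) :=
  haveI := An.baseF_isContinuous X
  canAdd_germ (B := X.sheaf) (A := An.hol X) (An.ptTop X) (anC X) M x U hU m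

theorem can_smul (M : X.Modules) (x : An.Pts X) (r : X.presheaf.stalk x.pt) (t : schStk M x) :
    can M x (r • t) = anStalkMap x r • can M x t :=
  haveI := An.baseF_isContinuous X
  canAdd_smul (B := X.sheaf) (A := An.hol X) (An.ptTop X) (anC X) M x r t

/-- `O_{X^an,x}` as an `O_{X,x}`-algebra (to be used with `letI`). -/
abbrev anAlg (x : An.Pts X) : Algebra (X.presheaf.stalk x.pt) ((An.anSpace X).presheaf.stalk x) :=
  (anStalkMap x).hom.toAlgebra

/-- The stalk of `M^an` is the base change of the stalk of `M`. -/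
def equiv (M : X.Modules) (x : An.Pts X) :
    letI := anAlg x
    ((An.anSpace X).presheaf.stalk x ⊗[X.presheaf.stalk x.pt] schStk M x)
      ≃ₗ[(An.anSpace X).presheaf.stalk x] anStk ((An.analytify X).obj M) x :=
  haveI := An.baseF_isContinuous X
  stalkPullbackEquiv (B := X.sheaf) (A := An.hol X) (An.ptTop X) (anC X) M x

theorem equiv_tmul (M : X.Modules) (x : An.Pts X) (a : (An.anSpace X).presheaf.stalk x)
    (m : schStk M x) :
    letI := anAlg x
    equiv M x (a ⊗ₜ[X.presheaf.stalk x.pt] m) = a • can M x m :=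
  haveI := An.baseF_isContinuous X
  stalkPullbackEquiv_tmul (B := X.sheaf) (A := An.hol X) (An.ptTop X) (anC X) M x a m

/-- The map on stalks at a complex point induced by a morphism of `O_X`-modules. -/
def schStkMap {M N : X.Modules} (g : M ⟶ N) (x : An.Pts X) :
    schStk M x →ₗ[X.presheaf.stalk x.pt] schStk N x :=
  stalkMap (A := X.sheaf) g x.pt

theorem schStkMap_germ {M N : X.Modules} (g : M ⟶ N) (x : An.Pts X) (U : X.Opens) (hU : x.pt ∈ U)
    (m : Γ(M, U)) :
    schStkMap g x (M.presheaf.germ U x.pt hU m) = N.presheaf.germ U x.pt hU (g.app U m) :=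
  stalkMap_germ (A := X.sheaf) g x.pt U hU m

/-- The map on stalks induced by a morphism of `O_{X^an}`-modules. -/
def anStkMap {M N : An.AnMod X} (g : M ⟶ N) (x : An.Pts X) :
    anStk M x →ₗ[(An.anSpace X).presheaf.stalk x] anStk N x :=
  stalkMap (A := An.hol X) g x

theorem anStkMap_germ {M N : An.AnMod X} (g : M ⟶ N) (x : An.Pts X) (U : Opens (An.top X))
    (hU : x ∈ U) (m : (anPsh M).obj (op U)) :
    anStkMap g x ((anPsh M).germ U x hU m) = (anPsh N).germ U x hU (g.val.app (op U) m) :=
  stalkMap_germ (A := An.hol X) g x U hU m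

/-- Naturality of the canonical map. -/
theorem can_natural {M N : X.Modules} (g : M ⟶ N) (x : An.Pts X) (t : schStk M x) :
    anStkMap ((An.analytify X).map g) x (can M x t) = can N x (schStkMap g x t) :=
  haveI := An.baseF_isContinuous X
  stalkMap_pullback_canAdd (B := X.sheaf) (A := An.hol X) (An.ptTop X) (anC X) g x t

/-- The map on stalks induced by `g^an` is the base change of the map induced by `g`. -/
theorem equiv_natural {M N : X.Modules} (g : M ⟶ N) (x : An.Pts X) :
    letI := anAlg x
    ∀ t : (An.anSpace X).presheaf.stalk x ⊗[X.presheaf.stalk x.pt] schStk M x,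
      anStkMap ((An.analytify X).map g) x (equiv M x t) =
        equiv N x ((schStkMap g x).lTensor _ t) :=
  haveI := An.baseF_isContinuous X
  stalkMap_pullback_equiv (B := X.sheaf) (A := An.hol X) (An.ptTop X) (anC X) g x

theorem span_range_can (M : X.Modules) (x : An.Pts X) :
    Submodule.span ((An.anSpace X).presheaf.stalk x) (Set.range (can M x)) = ⊤ :=
  haveI := An.baseF_isContinuous X
  span_range_canAdd (B := X.sheaf) (A := An.hol X) (An.ptTop X) (anC X) M x

/-! ### Criteria on stalks for `O_{X^an}`-modules -/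

theorem an_mono_iff {M N : An.AnMod X} (g : M ⟶ N) :
    Mono g ↔ ∀ x : An.Pts X, Function.Injective (anStkMap g x) := mono_iff (A := An.hol X) g

theorem an_epi_iff {M N : An.AnMod X} (g : M ⟶ N) :
    Epi g ↔ ∀ x : An.Pts X, Function.Surjective (anStkMap g x) := epi_iff (A := An.hol X) g

theorem an_isIso_iff {M N : An.AnMod X} (g : M ⟶ N) :
    IsIso g ↔ ∀ x : An.Pts X, Function.Bijective (anStkMap g x) := isIso_iff (A := An.hol X) g

theorem an_isZero_iff (M : An.AnMod X) :
    IsZero M ↔ ∀ x : An.Pts X, Subsingleton (anStk M x) := isZero_iff (A := An.hol X) M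

theorem an_hom_ext {M N : An.AnMod X} {g h : M ⟶ N}
    (e : ∀ x : An.Pts X, anStkMap g x = anStkMap h x) : g = h := hom_ext_stalk (A := An.hol X) e

theorem an_exact_iff (C : ShortComplex (An.AnMod X)) :
    C.Exact ↔ ∀ x : An.Pts X, Function.Exact (anStkMap C.f x) (anStkMap C.g x) :=
  exact_iff (A := An.hol X) C

end Groth.Agent.Gaga.H974.AnStalk
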