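import Groth.Agent.Gaga.H974.RPull
import Groth.Agent.CycB.StalkExact
import Mathlib.RingTheory.Flat.FaithfullyFlat.Algebra
import Mathlib.RingTheory.RingHom.Flat
import Mathlib.Algebra.Category.ModuleCat.Sheaf.Abelian
import Mathlib.CategoryTheory.Balanced

/-!
# Exactness on stalks and pullback along flat morphisms of ringed spaces

Notation as in `Groth.Agent.Gaga.H974.RPull`: `f : T ⟶ S`, `A` on `T`, `B` on `S`, `φ : B ⟶ f_* A`.

* `mono_iff`, `epi_iff`, `isIso_iff`, `isZero_iff`, `hom_ext_stalk`, `exact_iff`: stalkwise criteria for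
  sheaves of `A`-modules;
* `preservesFiniteLimits_pull`: `f^*` is exact if all `B_{f x} → A_x` are flat;
* `faithful_pull`: `f^*` is faithful if moreover all `B_{f x} → A_x` are faithfully flat and every nonempty
  locally closed subset of `S` meets `f(T)`.
-/

set_option autoImplicit false
set_option linter.unusedVariables false
set_option linter.unusedSectionVars false
set_option linter.style.haveILetI false
universe u
open CategoryTheory CategoryTheory.Limits TopologicalSpace Opposite AlgebraicGeometry

namespace Groth.Agent.Gaga.H974.RExact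

open Groth.Agent.Gaga.H974.RSky Groth.Agent.Gaga.H974.RPull

section Stalk

variable {T : TopCat.{u}} {A : TopCat.Sheaf CommRingCat.{u} T}

theorem toSheaf_preservesFiniteColimits (A : TopCat.Sheaf CommRingCat.{u} T) :
    PreservesFiniteColimits (SheafOfModules.toSheaf.{u} (rg A)) where
  preservesFiniteColimits J _ _ :=
    Groth.Agent.CycB.StalkExact.toSheaf_preservesColimitsOfShape (rg A) J

/-- The underlying abelian sheaf. -/
noncomputable def toAb (A : TopCat.Sheaf CommRingCat.{u} T) :
    SheafOfModules.{u} (rg A) ⥤ TopCat.Sheaf Ab.{u} T :=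
  SheafOfModules.toSheaf.{u} (rg A)

instance : (toAb A).Faithful := inferInstanceAs (SheafOfModules.toSheaf.{u} (rg A)).Faithful

instance : (toAb A).Additive := inferInstanceAs (SheafOfModules.toSheaf.{u} (rg A)).Additive

instance : PreservesFiniteLimits (toAb A) :=
  inferInstanceAs (PreservesFiniteLimits (SheafOfModules.toSheaf.{u} (rg A)))

instance : PreservesFiniteColimits (toAb A) := toSheaf_preservesFiniteColimits A

/-- The stalk functor on modules, with values in abelian groups. -/
noncomputable def stalkFun (A : TopCat.Sheaf CommRingCat.{u} T) (x : T) :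
    SheafOfModules.{u} (rg A) ⥤ Ab.{u} :=
  toAb A ⋙ (TopCat.Sheaf.forget Ab.{u} T ⋙ TopCat.Presheaf.stalkFunctor Ab.{u} x)

instance (x : T) : PreservesFiniteLimits (stalkFun A x) := by
  unfold stalkFun; infer_instance

instance (x : T) : PreservesFiniteColimits (stalkFun A x) := by
  unfold stalkFun; infer_instance

instance (x : T) : (stalkFun A x).Additive := by
  unfold stalkFun; infer_instance

theorem stalkFun_map_apply {M N : SheafOfModules.{u} (rg A)} (g : M ⟶ N) (x : T)
    (t : (pshS M).stalk x) : ((stalkFun A x).map g).hom t = stalkMap g x t :=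
  (stalkMap_eq g x t).symm

theorem stalkMap_add {M N : SheafOfModules.{u} (rg A)} (g h : M ⟶ N) (x : T) :
    stalkMap (g + h) x = stalkMap g x + stalkMap h x := by
  ext t
  obtain ⟨U, hU, s, rfl⟩ := TopCat.Presheaf.exists_germ_eq (pshS M) t
  rw [LinearMap.add_apply, stalkMap_germ, stalkMap_germ, stalkMap_germ]
  exact map_add ((pshS N).germ U x hU).hom _ _

theorem isZero_iff (M : SheafOfModules.{u} (rg A)) :
    IsZero M ↔ ∀ x : T, Subsingleton ((pshS M).stalk x) := by
  constructor
  · intro h x
    exact AddCommGrpCat.isZero_iff_subsingleton.1 ((stalkFun A x).map_isZero h)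
  · intro h
    have h0 : IsZero ((toAb A).obj M) := by
      rw [TopCat.Sheaf.isZero_iff_stalkFunctor_obj_isZero]
      intro x
      exact AddCommGrpCat.isZero_iff_subsingleton.2 (h x)
    rw [IsZero.iff_id_eq_zero] at h0 ⊢
    apply (toAb A).map_injective
    rw [(toAb A).map_id, h0, (toAb A).map_zero]

theorem mono_iff {M N : SheafOfModules.{u} (rg A)} (g : M ⟶ N) :
    Mono g ↔ ∀ x : T, Function.Injective (stalkMap g x) := by
  constructor
  · intro h x
    have : Mono ((stalkFun A x).map g) := inferInstance
    intro a b hab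
    apply (AddCommGrpCat.mono_iff_injective _).mp this
    exact (stalkFun_map_apply g x a).trans (hab.trans (stalkFun_map_apply g x b).symm)
  · intro h
    have : ∀ x : T, Mono ((TopCat.Presheaf.stalkFunctor AddCommGrpCat.{u} x).map
        ((toAb A).map g).1) := fun x => by
      refine (AddCommGrpCat.mono_iff_injective _).mpr ?_
      intro a b hab
      apply h x
      exact (stalkFun_map_apply g x a).symm.trans (Eq.trans hab (stalkFun_map_apply g x b))
    have := TopCat.Presheaf.mono_of_stalk_mono ((toAb A).map g)
    exact (toAb A).mono_of_mono_map this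

theorem isIso_iff {M N : SheafOfModules.{u} (rg A)} (g : M ⟶ N) :
    IsIso g ↔ ∀ x : T, Function.Bijective (stalkMap g x) := by
  constructor
  · intro h x
    exact (stalkIso (asIso g) x).bijective
  · intro h
    have : ∀ x : T, IsIso ((TopCat.Presheaf.stalkFunctor AddCommGrpCat.{u} x).map
        ((toAb A).map g).1) := fun x => by
      have h1 : Mono ((stalkFun A x).map g) := (AddCommGrpCat.mono_iff_injective _).mpr (by
        intro a b hab
        apply (h x).1
        exact (stalkFun_map_apply g x a).symm.trans (Eq.trans hab (stalkFun_map_apply g x b)))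
      have h2 : Epi ((stalkFun A x).map g) := (AddCommGrpCat.epi_iff_surjective _).mpr (by
        intro b
        obtain ⟨a, ha⟩ := (h x).2 b
        exact ⟨a, (stalkFun_map_apply g x a).trans ha⟩)
      exact isIso_of_mono_of_epi ((stalkFun A x).map g)
    have := TopCat.Presheaf.isIso_of_stalkFunctor_map_iso ((toAb A).map g)
    exact isIso_of_reflects_iso g (toAb A)

theorem epi_iff {M N : SheafOfModules.{u} (rg A)} (g : M ⟶ N) :
    Epi g ↔ ∀ x : T, Function.Surjective (stalkMap g x) := by
  constructor
  · intro h x b
    have : Epi ((stalkFun A x).map g) := inferInstance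
    obtain ⟨a, ha⟩ := (AddCommGrpCat.epi_iff_surjective _).mp this b
    exact ⟨a, (stalkFun_map_apply g x a).symm.trans ha⟩
  · intro h
    have h0 : IsZero (cokernel g) := by
      rw [isZero_iff]
      intro x
      have hepi : Epi ((stalkFun A x).map (cokernel.π g)) := inferInstance
      have key : ∀ a : (pshS (cokernel g)).stalk x, a = 0 := by
        intro a
        obtain ⟨b, hb⟩ := (AddCommGrpCat.epi_iff_surjective _).mp hepi a
        obtain ⟨c, rfl⟩ := h x b
        rw [← hb]
        refine (stalkFun_map_apply _ x _).trans ?_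
        have h2 : stalkMap (cokernel.π g) x (stalkMap g x c) =
            stalkMap (g ≫ cokernel.π g) x c := by rw [stalkMap_comp]; rfl
        rw [h2, cokernel.condition, stalkMap_zero]
        rfl
      exact ⟨fun a b => (key a).trans (key b).symm⟩
    exact Preadditive.epi_of_isZero_cokernel g h0

/-- Morphisms are determined by the maps on stalks. -/
theorem hom_ext_stalk {M N : SheafOfModules.{u} (rg A)} {g h : M ⟶ N}
    (e : ∀ x : T, stalkMap g x = stalkMap h x) : g = h := by
  apply SheafOfModules.hom_ext
  ext U s
  refine TopCat.Presheaf.section_ext ((toAb A).obj N) U.unop _ _ fun x hx => ?_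
  have := LinearMap.congr_fun (e x) ((pshS M).germ U.unop x hx s)
  rw [stalkMap_germ, stalkMap_germ] at this
  exact this

/-- A short complex of modules is exact iff it is exact on stalks. -/
theorem exact_iff (C : ShortComplex (SheafOfModules.{u} (rg A))) :
    C.Exact ↔ ∀ x : T, Function.Exact (stalkMap C.f x) (stalkMap C.g x) := by
  constructor
  · intro h x
    have h1 : (C.map (stalkFun A x)).Exact := h.map (stalkFun A x)
    rw [ShortComplex.ab_exact_iff_function_exact] at h1
    intro b
    have := h1 b
    constructor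
    · intro hb
      obtain ⟨a, ha⟩ := this.1 ((stalkFun_map_apply _ x _).trans hb)
      exact ⟨a, (stalkFun_map_apply _ x _).symm.trans ha⟩
    · rintro ⟨a, ha⟩
      exact (stalkFun_map_apply _ x _).symm.trans
        (this.2 ⟨a, (stalkFun_map_apply _ x _).trans ha⟩)
  · intro h
    rw [ShortComplex.exact_iff_isZero_homology, isZero_iff]
    intro x
    have h1 : (C.map (stalkFun A x)).Exact := by
      rw [ShortComplex.ab_exact_iff_function_exact]
      intro b
      have := h x b
      constructor
      · intro hb
        obtain ⟨a, ha⟩ := this.1 ((stalkFun_map_apply _ x _).symm.trans hb)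
        exact ⟨a, (stalkFun_map_apply _ x _).trans ha⟩
      · rintro ⟨a, ha⟩
        exact (stalkFun_map_apply _ x _).trans
          (this.2 ⟨a, (stalkFun_map_apply _ x _).symm.trans ha⟩)
    rw [ShortComplex.exact_iff_isZero_homology] at h1
    exact AddCommGrpCat.isZero_iff_subsingleton.1
      (h1.of_iso (C.mapHomologyIso (stalkFun A x)).symm)

end Stalk

section Pull

variable {T S : TopCat.{u}} {A : TopCat.Sheaf CommRingCat.{u} T} {B : TopCat.Sheaf CommRingCat.{u} S}
  (f : T ⟶ S) (φ : B.obj ⟶ (Opens.map f).op ⋙ A.obj)
  [(Opens.map f).IsContinuous (Opens.grothendieckTopology S) (Opens.grothendieckTopology T)]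

open TensorProduct

instance pull_preservesFiniteColimits : PreservesFiniteColimits (pull f φ) := by
  have : PreservesColimitsOfSize.{0, 0} (pull f φ) := (adj f φ).leftAdjoint_preservesColimits
  exact PreservesColimitsOfSize.preservesFiniteColimits _

instance pull_additive : (pull f φ).Additive := by
  have : PreservesBinaryBiproducts (pull f φ) :=
    preservesBinaryBiproducts_of_preservesBinaryCoproducts (pull f φ)
  exact Functor.additive_of_preservesBinaryBiproducts _

theorem mono_pull_map (hflat : ∀ x : T, (stk f φ x).hom.Flat) {M N : SheafOfModules.{u} (rg B)}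
    (g : M ⟶ N) [Mono g] : Mono ((pull f φ).map g) := by
  rw [mono_iff]
  intro x
  letI := stalkAlg f φ x
  haveI : Module.Flat (B.presheaf.stalk (f x)) (A.presheaf.stalk x) := hflat x
  intro a b hab
  obtain ⟨a, rfl⟩ := (stalkPullbackEquiv f φ M x).surjective a
  obtain ⟨b, rfl⟩ := (stalkPullbackEquiv f φ M x).surjective b
  rw [stalkMap_pullback_equiv, stalkMap_pullback_equiv, EmbeddingLike.apply_eq_iff_eq] at hab
  congr 1
  exact Module.Flat.lTensor_preserves_injective_linearMap _
    ((mono_iff g).1 inferInstance (f x)) hab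

/-- Inverse image of modules along a flat morphism of ringed spaces is exact. -/
theorem preservesFiniteLimits_pull (hflat : ∀ x : T, (stk f φ x).hom.Flat) :
    PreservesFiniteLimits (pull f φ) := by
  have h := (Functor.preservesFiniteColimits_iff_forall_exact_map_and_epi (pull f φ)).1 inferInstance
  refine (Functor.preservesFiniteLimits_iff_forall_exact_map_and_mono (pull f φ)).2
    fun S hS => ⟨(h S hS).1, ?_⟩
  have := hS.mono_f
  exact mono_pull_map f φ hflat S.f

theorem stalkMap_eq_zero_of_pull (x : T)
    (hff : letI := stalkAlg f φ x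
      Module.FaithfullyFlat (B.presheaf.stalk (f x)) (A.presheaf.stalk x))
    {M N : SheafOfModules.{u} (rg B)} (g : M ⟶ N)
    (h0 : stalkMap ((pull f φ).map g) x = 0) : stalkMap g (f x) = 0 := by
  letI := stalkAlg f φ x
  haveI := hff
  rw [Module.FaithfullyFlat.zero_iff_lTensor_zero (R := B.presheaf.stalk (f x))
    (M := A.presheaf.stalk x)]
  refine LinearMap.ext fun t => ?_
  apply (stalkPullbackEquiv f φ N x).injective
  have h1 := stalkMap_pullback_equiv f φ g x t
  rw [h0] at h1
  refine h1.symm.trans ?_
  rw [LinearMap.zero_apply, LinearMap.zero_apply, map_zero]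

/-- A morphism of `B`-modules vanishing on the stalks at the points of a set meeting every nonempty
locally closed subset is zero. -/
theorem hom_eq_zero_of_stalks {P : Set S}
    (hP : ∀ Z : Set S, IsLocallyClosed Z → Z.Nonempty → (Z ∩ P).Nonempty)
    {M N : SheafOfModules.{u} (rg B)} (g : M ⟶ N) (h : ∀ s ∈ P, stalkMap g s = 0) : g = 0 := by
  apply SheafOfModules.hom_ext
  ext U m
  -- the set of points of `U` where the germ of `g m` vanishes
  let n : (pshS N).obj (op U.unop) := g.val.app (op U.unop) m
  let W : Set S := {s | ∃ hs : s ∈ U.unop, (pshS N).germ U.unop s hs n = 0}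
  have hW : IsOpen W := by
    rw [isOpen_iff_forall_mem_open]
    rintro s ⟨hs, h0⟩
    have h0' : (pshS N).germ U.unop s hs n = (pshS N).germ U.unop s hs 0 := by
      rw [h0, map_zero]
    obtain ⟨V, hsV, iU, iU', e⟩ := TopCat.Presheaf.germ_eq (pshS N) s hs hs n 0 h0'
    refine ⟨V, fun t ht => ⟨leOfHom iU ht, ?_⟩, V.2, hsV⟩
    rw [← TopCat.Presheaf.germ_res_apply (pshS N) iU t ht n, e, map_zero, map_zero]
  have hU : (U.unop : Set S) ⊆ W := by
    by_contra hcon
    obtain ⟨s, hsU, hsW⟩ := Set.not_subset.1 hcon
    have hZ : IsLocallyClosed ((U.unop : Set S) ∩ Wᶜ) :=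
      (U.unop.2.isLocallyClosed).inter (isClosed_compl_iff.2 hW).isLocallyClosed
    obtain ⟨p, ⟨hpU, hpW⟩, hpP⟩ := hP _ hZ ⟨s, hsU, hsW⟩
    apply hpW
    refine ⟨hpU, ?_⟩
    have := LinearMap.congr_fun (h p hpP) ((pshS M).germ U.unop p hpU m)
    rw [stalkMap_germ] at this
    exact this
  refine TopCat.Presheaf.section_ext ((toAb B).obj N) U.unop _ _ fun s hs => ?_
  obtain ⟨hs', h0⟩ := hU hs
  exact h0.trans (map_zero ((pshS N).germ U.unop s hs).hom).symm

/-- Inverse image of modules is faithful if the stalk maps are faithfully flat and the image of the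
map of spaces meets every nonempty locally closed subset. -/
theorem faithful_pull
    (hP : ∀ Z : Set S, IsLocallyClosed Z → Z.Nonempty → (Z ∩ Set.range f).Nonempty)
    (hff : ∀ x : T, letI := stalkAlg f φ x
      Module.FaithfullyFlat (B.presheaf.stalk (f x)) (A.presheaf.stalk x)) :
    (pull f φ).Faithful := by
  refine ⟨fun {M N} g h e => ?_⟩
  have e0 : (pull f φ).map (g - h) = 0 := by rw [Functor.map_sub, e, sub_self]
  refine sub_eq_zero.1 (hom_eq_zero_of_stalks hP (g - h) ?_)
  rintro _ ⟨x, rfl⟩
  exact stalkMap_eq_zero_of_pull f φ x (hff x) (g - h) (by rw [e0, stalkMap_zero])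

/-- ... and it is conservative. -/
theorem reflectsIsomorphisms_pull
    (hP : ∀ Z : Set S, IsLocallyClosed Z → Z.Nonempty → (Z ∩ Set.range f).Nonempty)
    (hff : ∀ x : T, letI := stalkAlg f φ x
      Module.FaithfullyFlat (B.presheaf.stalk (f x)) (A.presheaf.stalk x)) :
    (pull f φ).ReflectsIsomorphisms := by
  haveI := faithful_pull f φ hP hff
  infer_instance

end Pull

end Groth.Agent.Gaga.H974.RExact
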