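import Groth.Prelude.Def_AnHol
import Groth.Agent.Gaga.H974.RExact
import Groth.Agent.An.H863.PtsBasic

/-!
# Analytification of sheaves of modules: stalks, exactness, faithfulness

* `evStalk x : O_{X^an,x} → ℂ`, evaluation of germs;
* `stalkEquiv M x : O_{X^an,x} ⊗[O_{X,x}] M_x ≃ₗ (M^an)_x`, natural in `M` (`stalkMap_analytify`), with
  `canAdd M x : M_x → (M^an)_x`, `canAdd_germ` (value on germs of unit sections), `span_range_canAdd`;
* exactness, faithfulness, conservativity of `analytify` when the stalk maps `O_{X,x} → O_{X^an,x}`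
  are flat.
-/

set_option autoImplicit false
set_option linter.style.haveILetI false
open CategoryTheory AlgebraicGeometry Topology TopologicalSpace Opposite CategoryTheory.Limits
open TensorProduct

noncomputable section

namespace Groth.Agent.Gaga.H974.Analytify

open Groth.Agent.Gaga.H974.RSky Groth.Agent.Gaga.H974.RPull Groth.Agent.Gaga.H974.RExact
open Groth.Agent.An.H863.PtsBasic

variable {X : Scheme.{0}} [X.Over An.SC]

/-- Evaluation of germs of holomorphic functions. -/
def evStalk (x : An.Pts X) : (An.anSpace X).presheaf.stalk x ⟶ CommRingCat.of ℂ :=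
  Limits.colimit.desc ((OpenNhds.inclusion (X := An.top X) x).op ⋙ An.holPresheaf X)
    (Limits.Cocone.mk (CommRingCat.of ℂ)
      { app := fun U => CommRingCat.ofHom
          ((Pi.evalRingHom (fun _ : U.unop.1 => ℂ) ⟨x, U.unop.2⟩).comp
            (An.holSub U.unop.1).val.toRingHom)
        naturality := fun U V i => rfl })

theorem evStalk_germ (x : An.Pts X) (U : Opens (An.top X)) (hU : x ∈ U)
    (g : (An.holPresheaf X).obj (op U)) :
    evStalk x ((An.anSpace X).presheaf.germ U x hU g) = g.1 ⟨x, hU⟩ := by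
  have h := Limits.colimit.ι_desc (F := (OpenNhds.inclusion (X := An.top X) x).op ⋙ An.holPresheaf X)
    (Limits.Cocone.mk (CommRingCat.of ℂ)
      { app := fun U => CommRingCat.ofHom
          ((Pi.evalRingHom (fun _ : U.unop.1 => ℂ) ⟨x, U.unop.2⟩).comp
            (An.holSub U.unop.1).val.toRingHom)
        naturality := fun U V i => rfl }) (op ⟨U, hU⟩)
  exact ConcreteCategory.congr_hom h g

/-- The map on stalks `O_{X,x} → O_{X^an,x}`. -/
abbrev anStalkMap (x : An.Pts X) : X.presheaf.stalk x.pt ⟶ (An.anSpace X).presheaf.stalk x :=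
  PresheafedSpace.Hom.stalkMap (An.anToScheme X) x

theorem anStalkMap_germ (x : An.Pts X) (U : X.Opens) (hU : x.pt ∈ U) (s : Γ(X, U)) :
    anStalkMap x (X.presheaf.germ U x.pt hU s) =
      (An.anSpace X).presheaf.germ ((An.baseF X).obj U) x hU (An.toHolApp U s) :=
  ConcreteCategory.congr_hom (PresheafedSpace.stalkMap_germ (An.anToScheme X) U x hU) s

theorem evStalk_anStalkMap_germ (x : An.Pts X) (U : X.Opens) (hU : x.pt ∈ U) (s : Γ(X, U)) :
    evStalk x (anStalkMap x (X.presheaf.germ U x.pt hU s)) = x.ev U hU s := by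
  rw [anStalkMap_germ]
  exact evStalk_germ x _ hU _

theorem evStalk_anStalkMap_eq_zero (x : An.Pts X) (a : X.presheaf.stalk x.pt)
    (ha : a ∈ IsLocalRing.maximalIdeal (X.presheaf.stalk x.pt)) :
    evStalk x (anStalkMap x a) = 0 := by
  obtain ⟨U, hU, s, rfl⟩ := TopCat.Presheaf.exists_germ_eq X.presheaf a
  rw [evStalk_anStalkMap_germ, ev_eq_zero_iff]
  intro h
  rw [Scheme.mem_basicOpen _ _ _ hU] at h
  exact (IsLocalRing.mem_maximalIdeal _).1 ha h


/-- The comorphism `O_X → (X^an → X)_* hol` as a map of presheaves. -/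
abbrev anC (X : Scheme.{0}) [X.Over An.SC] :
    X.sheaf.obj ⟶ (Opens.map (An.ptTop X)).op ⋙ (An.hol X).obj := (An.anToScheme X).c

theorem stk_eq (x : An.Pts X) :
    stk (B := X.sheaf) (A := An.hol X) (An.ptTop X) (anC X) x = anStalkMap x := rfl

/-- `pull` for the data `X^an → X`. -/
abbrev anPull (X : Scheme.{0}) [X.Over An.SC] :
    SheafOfModules.{0} (rg X.sheaf) ⥤ SheafOfModules.{0} (rg (An.hol X)) :=
  haveI : (Opens.map (An.ptTop X)).IsContinuous (Opens.grothendieckTopology (X : TopCat.{0}))
    (Opens.grothendieckTopology (An.top X)) := An.baseF_isContinuous X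
  pull (B := X.sheaf) (A := An.hol X) (An.ptTop X) (anC X)

theorem anPull_eq : anPull X = An.analytify X := rfl

/-- The stalk map `O_{X,x} → O_{X^an,x}` is faithfully flat as soon as it is flat. -/
theorem faithfullyFlat (x : An.Pts X) (h : (anStalkMap x).hom.Flat) :
    letI := (anStalkMap x).hom.toAlgebra
    Module.FaithfullyFlat (X.presheaf.stalk x.pt) ((An.anSpace X).presheaf.stalk x) := by
  letI := (anStalkMap x).hom.toAlgebra
  haveI : Module.Flat (X.presheaf.stalk x.pt) ((An.anSpace X).presheaf.stalk x) := h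
  refine ⟨fun m hm htop => ?_⟩
  have hmax : m = IsLocalRing.maximalIdeal (X.presheaf.stalk x.pt) :=
    IsLocalRing.eq_maximalIdeal hm
  have h1 : (1 : (An.anSpace X).presheaf.stalk x) ∈
      m • (⊤ : Submodule (X.presheaf.stalk x.pt) ((An.anSpace X).presheaf.stalk x)) := by
    rw [htop]; trivial
  have key : ∀ b ∈ m • (⊤ : Submodule (X.presheaf.stalk x.pt) ((An.anSpace X).presheaf.stalk x)),
      evStalk x b = 0 := by
    intro b hb
    refine Submodule.smul_induction_on hb ?_ ?_
    · intro a ha b _
      rw [Algebra.smul_def, map_mul]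
      have : evStalk x (algebraMap (X.presheaf.stalk x.pt) ((An.anSpace X).presheaf.stalk x) a) = 0 :=
        evStalk_anStalkMap_eq_zero x a (hmax ▸ ha)
      rw [this, zero_mul]
    · intro a b ha hb
      rw [map_add, ha, hb, add_zero]
  have h2 := key 1 h1
  rw [map_one] at h2
  exact one_ne_zero h2

variable (X) in
theorem meets_range [LocallyOfFiniteType (X ↘ An.SC)] (Z : Set X) (hZ : IsLocallyClosed Z)
    (hne : Z.Nonempty) : (Z ∩ Set.range (An.ptTop X)).Nonempty := by
  obtain ⟨x, hx⟩ := exists_pt_mem_of_isLocallyClosed hZ hne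
  exact ⟨x.pt, hx, x, rfl⟩

variable (X) in
/-- Analytification is exact, faithful and conservative if all stalk maps are flat. -/
theorem analytify_of_flat [LocallyOfFiniteType (X ↘ An.SC)]
    (hflat : ∀ x : An.Pts X, (anStalkMap x).hom.Flat) :
    PreservesFiniteLimits (An.analytify X) ∧ PreservesFiniteColimits (An.analytify X) ∧
      (An.analytify X).Faithful ∧ (An.analytify X).ReflectsIsomorphisms := by
  haveI : (Opens.map (An.ptTop X)).IsContinuous (Opens.grothendieckTopology (X : TopCat.{0}))
    (Opens.grothendieckTopology (An.top X)) := An.baseF_isContinuous X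
  refine ⟨?_, ?_, ?_, ?_⟩
  · exact preservesFiniteLimits_pull (B := X.sheaf) (A := An.hol X) (An.ptTop X) (anC X) hflat
  · exact pull_preservesFiniteColimits (B := X.sheaf) (A := An.hol X) (An.ptTop X) (anC X)
  · exact faithful_pull (B := X.sheaf) (A := An.hol X) (An.ptTop X) (anC X) (meets_range X)
      fun x => faithfullyFlat x (hflat x)
  · exact reflectsIsomorphisms_pull (B := X.sheaf) (A := An.hol X) (An.ptTop X) (anC X)
      (meets_range X) fun x => faithfullyFlat x (hflat x)

end Groth.Agent.Gaga.H974.Analytify
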