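import Groth.Agent.Gaga.H974.RSky
import Mathlib.Algebra.Category.ModuleCat.Sheaf.PullbackContinuous
import Mathlib.Geometry.RingedSpace.Stalks
import Mathlib.CategoryTheory.Sites.Spaces
import Mathlib.Topology.Sheaves.SheafCondition.Sites
import Mathlib.CategoryTheory.Sites.PreservesSheafification
import Mathlib.AlgebraicGeometry.Modules.Sheaf

/-!
# The stalk of the pullback of a sheaf of modules along a morphism of ringed spaces

`f : T ⟶ S` continuous, `A` a sheaf of commutative rings on `T`, `B` on `S`, `φ : B ⟶ f_* A`.  For a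
sheaf of `B`-modules `M` and `x : T` the canonical map `M_{f x} → (f^* M)_x` exhibits `(f^* M)_x` as the
base change `A_x ⊗_{B_{f x}} M_{f x}`.  (The scheme version is Groth.Agent.Fdesc.PullbackStalk.)
-/

set_option autoImplicit false
set_option linter.unusedVariables false
set_option linter.unusedSectionVars false
set_option linter.style.haveILetI false
universe u
open CategoryTheory TopologicalSpace Opposite AlgebraicGeometry

namespace Groth.Agent.Gaga.H974.RPull

open Groth.Agent.Gaga.H974.RSky

variable {T S : TopCat.{u}} {A : TopCat.Sheaf CommRingCat.{u} T} {B : TopCat.Sheaf CommRingCat.{u} S}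

/-- The underlying map of sheaves of rings. -/
def rgHom (f : T ⟶ S) (φ : B.obj ⟶ (Opens.map f).op ⋙ A.obj)
    [(Opens.map f).IsContinuous (Opens.grothendieckTopology S) (Opens.grothendieckTopology T)] :
    rg B ⟶ ((Opens.map f).sheafPushforwardContinuous RingCat.{u}
      (Opens.grothendieckTopology S) (Opens.grothendieckTopology T)).obj (rg A) where
  hom := Functor.whiskerRight φ _

variable (f : T ⟶ S) (φ : B.obj ⟶ (Opens.map f).op ⋙ A.obj)
  [(Opens.map f).IsContinuous (Opens.grothendieckTopology S) (Opens.grothendieckTopology T)]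

/-- direct image of modules. -/
noncomputable abbrev push : SheafOfModules.{u} (rg A) ⥤ SheafOfModules.{u} (rg B) :=
  SheafOfModules.pushforward (F := Opens.map f) (J := Opens.grothendieckTopology S)
    (K := Opens.grothendieckTopology T) (rgHom f φ)

/-- inverse image of modules. -/
noncomputable abbrev pull : SheafOfModules.{u} (rg B) ⥤ SheafOfModules.{u} (rg A) :=
  SheafOfModules.pullback (F := Opens.map f) (J := Opens.grothendieckTopology S)
    (K := Opens.grothendieckTopology T) (rgHom f φ)

/-- the adjunction. -/
noncomputable abbrev adj : pull f φ ⊣ push f φ :=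
  SheafOfModules.pullbackPushforwardAdjunction (F := Opens.map f) (J := Opens.grothendieckTopology S)
    (K := Opens.grothendieckTopology T) (rgHom f φ)

/-- the map on stalks of rings `B_{f x} → A_x`. -/
noncomputable def stk (x : T) : B.presheaf.stalk (f x) ⟶ A.presheaf.stalk x :=
  (TopCat.Presheaf.stalkFunctor CommRingCat.{u} (f x)).map φ ≫
    TopCat.Presheaf.stalkPushforward CommRingCat.{u} f A.presheaf x

theorem stk_germ (x : T) (V : Opens S) (hV : f x ∈ V) (r : B.presheaf.obj (op V)) :
    stk f φ x (B.presheaf.germ V (f x) hV r) =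
      A.presheaf.germ ((Opens.map f).obj V) x hV (φ.app (op V) r) := by
  have h : B.presheaf.germ V (f x) hV ≫ stk f φ x =
      φ.app (op V) ≫ A.presheaf.germ ((Opens.map f).obj V) x hV := by
    rw [stk]
    erw [TopCat.Presheaf.stalkFunctor_map_germ_assoc, TopCat.Presheaf.stalkPushforward_germ]
  exact ConcreteCategory.congr_hom h r

theorem congr_app {M N : SheafOfModules.{u} (rg B)} {g h : M ⟶ N} (e : g = h) (V : Opens S)
    (s : (pshS M).obj (op V)) :
    ((g.val.app (op V) s : N.val.obj (op V))) = (h.val.app (op V) s) := by rw [e]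

/-- The semilinear map on stalks `(f_* N)_{f x} → N_x` (additive version). -/
noncomputable def pushAdd (N : SheafOfModules.{u} (rg A)) (x : T) :
    (pshS ((push f φ).obj N)).stalk (f x) →+ (pshS N).stalk x :=
  stalkDesc (pshS ((push f φ).obj N)) (f x) ((pshS N).stalk x)
    (fun V hV => ((pshS N).germ ((Opens.map f).obj V) x hV).hom)
    (fun U V i hU s =>
      TopCat.Presheaf.germ_res_apply (pshS N) ((Opens.map f).map i) x hU s)

theorem pushAdd_germ (N : SheafOfModules.{u} (rg A)) (x : T) (V : Opens S) (hV : f x ∈ V)
    (s : (pshS N).obj (op ((Opens.map f).obj V))) :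
    pushAdd f φ N x ((pshS ((push f φ).obj N)).germ V (f x) hV s) =
      (pshS N).germ ((Opens.map f).obj V) x hV s :=
  stalkDesc_germ (pshS ((push f φ).obj N)) (f x) ((pshS N).stalk x)
    (fun V hV => ((pshS N).germ ((Opens.map f).obj V) x hV).hom)
    (fun U V i hU s =>
      TopCat.Presheaf.germ_res_apply (pshS N) ((Opens.map f).map i) x hU s) V hV s

theorem pushAdd_smul (N : SheafOfModules.{u} (rg A)) (x : T) (r : B.presheaf.stalk (f x))
    (t : (pshS ((push f φ).obj N)).stalk (f x)) :
    pushAdd f φ N x (r • t) = stk f φ x r • pushAdd f φ N x t := by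
  obtain ⟨U, hU, r, s, rfl, rfl⟩ := exists_common ((push f φ).obj N).val (f x) r t
  have h1 : B.presheaf.germ U (f x) hU r •
      (pshS ((push f φ).obj N)).germ U (f x) hU s =
      (pshS ((push f φ).obj N)).germ U (f x) hU (r • s) :=
    (pre_germ_smul ((push f φ).obj N).val (f x) U hU r s).symm
  refine (congrArg (pushAdd f φ N x) h1).trans ?_
  refine (pushAdd_germ f φ N x U hU _).trans ?_
  refine (pre_germ_smul N.val x ((Opens.map f).obj U) hU (φ.app (op U) r) s).trans ?_
  refine congrArg₂ (fun a b => a • b) ?_ (pushAdd_germ f φ N x U hU s).symm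
  exact (stk_germ f φ x U hU r).symm

/-- The canonical additive map `M_{f x} → (f^* M)_x`. -/
noncomputable def canAdd (M : SheafOfModules.{u} (rg B)) (x : T) :
    (pshS M).stalk (f x) →+ (pshS ((pull f φ).obj M)).stalk x :=
  (pushAdd f φ _ x).comp
    (stalkMap ((adj f φ).unit.app M) (f x)).toAddMonoidHom

theorem canAdd_germ (M : SheafOfModules.{u} (rg B)) (x : T) (V : Opens S) (hV : f x ∈ V)
    (s : (pshS M).obj (op V)) :
    canAdd f φ M x ((pshS M).germ V (f x) hV s) =
      (pshS ((pull f φ).obj M)).germ ((Opens.map f).obj V) x hV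
        (((adj f φ).unit.app M).val.app (op V) s) := by
  refine (congrArg (pushAdd f φ _ x) (stalkMap_germ _ (f x) V hV s)).trans ?_
  exact pushAdd_germ f φ _ x V hV _

theorem canAdd_smul (M : SheafOfModules.{u} (rg B)) (x : T) (r : B.presheaf.stalk (f x))
    (t : (pshS M).stalk (f x)) :
    canAdd f φ M x (r • t) = stk f φ x r • canAdd f φ M x t := by
  refine (congrArg (pushAdd f φ _ x) (map_smul (stalkMap _ (f x)) r t)).trans ?_
  exact pushAdd_smul f φ _ x r _

section Universal

variable {x : T} {Q : Type u} [AddCommGroup Q] [Module (A.presheaf.stalk x) Q]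

/-- The morphism `M ⟶ f_* sky` attached to a semilinear map out of the stalk of `M`. -/
noncomputable def toPushSky {M : SheafOfModules.{u} (rg B)} (g : (pshS M).stalk (f x) →+ Q)
    (hg : ∀ (r : B.presheaf.stalk (f x)) (t : (pshS M).stalk (f x)),
      g (r • t) = stk f φ x r • g t) :
    M ⟶ (push f φ).obj (sky A x Q) :=
  ⟨{  app := fun V => ModuleCat.ofHom
        (Y := ((push f φ).obj (sky A x Q)).val.obj V)
        { toFun := fun s => (fun h => g ((pshS M).germ V.unop (f x) h.down s) :
            Sec x Q ((Opens.map f).obj V.unop))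
          map_add' := fun s t => by
            refine (funext fun h => ?_ : (_ : Sec x Q ((Opens.map f).obj V.unop)) = _)
            exact (congrArg g (((pshS M).germ V.unop (f x) h.down).hom.map_add s t)).trans
              (g.map_add _ _)
          map_smul' := fun r s => by
            refine (funext fun h => ?_ : (_ : Sec x Q ((Opens.map f).obj V.unop)) = _)
            refine (congrArg g (pre_germ_smul M.val (f x) V.unop h.down r s)).trans ?_
            refine (hg _ _).trans ?_
            refine congrArg (fun a => a • g ((pshS M).germ V.unop (f x) h.down s)) ?_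
            exact stk_germ f φ x V.unop h.down r }
      naturality := fun {U V} i => by
        ext s
        refine (funext fun h => ?_ : (_ : Sec x Q ((Opens.map f).obj V.unop)) = _)
        exact congrArg g (TopCat.Presheaf.germ_res_apply (pshS M) i.unop (f x) h.down s) }⟩

theorem toPushSky_app_apply {M : SheafOfModules.{u} (rg B)} (g : (pshS M).stalk (f x) →+ Q)
    (hg : ∀ (r : B.presheaf.stalk (f x)) (t : (pshS M).stalk (f x)),
      g (r • t) = stk f φ x r • g t) (V : Opens S) (s : (pshS M).obj (op V))
    (h : PLift (x ∈ (Opens.map f).obj V)) :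
    ((toPushSky f φ g hg).val.app (op V) s : Sec x Q ((Opens.map f).obj V)) h =
      g ((pshS M).germ V (f x) h.down s) := rfl

/-- The linear map out of the stalk of `f^* M` attached to a semilinear map out of the stalk
of `M`. -/
noncomputable def lift {M : SheafOfModules.{u} (rg B)} (g : (pshS M).stalk (f x) →+ Q)
    (hg : ∀ (r : B.presheaf.stalk (f x)) (t : (pshS M).stalk (f x)),
      g (r • t) = stk f φ x r • g t) :
    (pshS ((pull f φ).obj M)).stalk x →ₗ[A.presheaf.stalk x] Q :=
  ofSky (((adj f φ).homEquiv M (sky A x Q)).symm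
    (toPushSky f φ g hg))

theorem lift_canAdd {M : SheafOfModules.{u} (rg B)} (g : (pshS M).stalk (f x) →+ Q)
    (hg : ∀ (r : B.presheaf.stalk (f x)) (t : (pshS M).stalk (f x)),
      g (r • t) = stk f φ x r • g t) (t : (pshS M).stalk (f x)) :
    lift f φ g hg (canAdd f φ M x t) = g t := by
  obtain ⟨V, hV, s, rfl⟩ := TopCat.Presheaf.exists_germ_eq (pshS M) t
  refine (congrArg (lift f φ g hg) (canAdd_germ f φ M x V hV s)).trans ?_
  refine (ofSky_germ _ ((Opens.map f).obj V) hV _).trans ?_
  have h : ((adj f φ).homEquiv M (sky A x Q))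
      (((adj f φ).homEquiv M (sky A x Q)).symm
        (toPushSky f φ g hg)) = toPushSky f φ g hg := Equiv.apply_symm_apply _ _
  rw [Adjunction.homEquiv_unit] at h
  have h2 := congr_app h V s
  exact congrFun (h2 : (_ : Sec x Q ((Opens.map f).obj V)) = _) ⟨hV⟩

theorem lift_unique {M : SheafOfModules.{u} (rg B)}
    (g₁ g₂ : (pshS ((pull f φ).obj M)).stalk x →ₗ[A.presheaf.stalk x] Q)
    (h : ∀ t, g₁ (canAdd f φ M x t) = g₂ (canAdd f φ M x t)) : g₁ = g₂ := by
  have key : toSky g₁ = toSky g₂ := by
    apply ((adj f φ).homEquiv M (sky A x Q)).injective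
    rw [Adjunction.homEquiv_unit, Adjunction.homEquiv_unit]
    apply SheafOfModules.hom_ext
    ext V s
    refine (funext fun h' => ?_ : (_ : Sec x Q ((Opens.map f).obj V.unop)) = _)
    have := h ((pshS M).germ V.unop (f x) h'.down s)
    rw [canAdd_germ] at this
    exact this
  rw [← ofSky_toSky g₁, ← ofSky_toSky g₂, key]

end Universal

section BaseChange

open TensorProduct

/-- `A_x` as an algebra over `B_{f x}` (reducible definition, to be used with `letI`). -/
noncomputable abbrev stalkAlg (x : T) : Algebra (B.presheaf.stalk (f x)) (A.presheaf.stalk x) :=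
  (stk f φ x).hom.toAlgebra

/-- The `B_{f x}`-module structure on `N_x` (reducible, to be used with `letI`). -/
noncomputable abbrev overModule (N : SheafOfModules.{u} (rg A)) (x : T) :
    Module (B.presheaf.stalk (f x)) ((pshS N).stalk x) :=
  Module.compHom _ (stk f φ x).hom

theorem isScalarTower (N : SheafOfModules.{u} (rg A)) (x : T) :
    letI := stalkAlg f φ x
    letI := overModule f φ N x
    IsScalarTower (B.presheaf.stalk (f x)) (A.presheaf.stalk x) ((pshS N).stalk x) := by
  letI := stalkAlg f φ x
  letI := overModule f φ N x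
  refine ⟨fun r a m => ?_⟩
  rw [Algebra.smul_def, mul_smul]
  rfl

/-- The canonical map `M_{f x} → (f^* M)_x`, linear over `B_{f x}`. -/
noncomputable def can (M : SheafOfModules.{u} (rg B)) (x : T) :
    letI := overModule f φ ((pull f φ).obj M) x
    (pshS M).stalk (f x) →ₗ[B.presheaf.stalk (f x)]
      (pshS ((pull f φ).obj M)).stalk x :=
  letI := overModule f φ ((pull f φ).obj M) x
  { toFun := canAdd f φ M x
    map_add' := map_add _
    map_smul' := canAdd_smul f φ M x }

/-- The stalk of `f^* M` at `x` is the base change of the stalk of `M` at `f x`. -/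
theorem isBaseChange_can (M : SheafOfModules.{u} (rg B)) (x : T) :
    letI := stalkAlg f φ x
    letI := overModule f φ ((pull f φ).obj M) x
    haveI := isScalarTower f φ ((pull f φ).obj M) x
    IsBaseChange (A.presheaf.stalk x) (can f φ M x) := by
  letI := stalkAlg f φ x
  letI := overModule f φ ((pull f φ).obj M) x
  haveI := isScalarTower f φ ((pull f φ).obj M) x
  apply IsBaseChange.of_lift_unique
  intro Q _ _ _ _ g
  letI : AddCommGroup Q := Module.addCommMonoidToAddCommGroup (A.presheaf.stalk x)
  have hg : ∀ (r : B.presheaf.stalk (f x)) (t : (pshS M).stalk (f x)),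
      g (r • t) = stk f φ x r • g t := by
    intro r t
    rw [g.map_smul]
    exact (algebraMap_smul (A.presheaf.stalk x) r (g t)).symm
  refine ⟨lift f φ g.toAddMonoidHom hg, ?_, ?_⟩
  · ext t
    exact lift_canAdd f φ g.toAddMonoidHom hg t
  · intro g' hg'
    refine lift_unique f φ _ _ fun t => ?_
    exact (LinearMap.congr_fun hg' t).trans (lift_canAdd f φ g.toAddMonoidHom hg t).symm

/-- The stalk of the pullback as a tensor product. -/
noncomputable def stalkPullbackEquiv (M : SheafOfModules.{u} (rg B)) (x : T) :
    letI := stalkAlg f φ x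
    (A.presheaf.stalk x ⊗[B.presheaf.stalk (f x)] (pshS M).stalk (f x))
      ≃ₗ[A.presheaf.stalk x] (pshS ((pull f φ).obj M)).stalk x :=
  letI := stalkAlg f φ x
  letI := overModule f φ ((pull f φ).obj M) x
  haveI := isScalarTower f φ ((pull f φ).obj M) x
  (isBaseChange_can f φ M x).equiv

theorem stalkPullbackEquiv_tmul (M : SheafOfModules.{u} (rg B)) (x : T) (a : A.presheaf.stalk x)
    (m : (pshS M).stalk (f x)) :
    letI := stalkAlg f φ x
    stalkPullbackEquiv f φ M x (a ⊗ₜ[B.presheaf.stalk (f x)] m) = a • canAdd f φ M x m :=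
  letI := stalkAlg f φ x
  letI := overModule f φ ((pull f φ).obj M) x
  haveI := isScalarTower f φ ((pull f φ).obj M) x
  (isBaseChange_can f φ M x).equiv_tmul a m

/-- Naturality of the canonical map. -/
theorem stalkMap_pullback_canAdd {M N : SheafOfModules.{u} (rg B)} (ψ : M ⟶ N) (x : T)
    (t : (pshS M).stalk (f x)) :
    stalkMap ((pull f φ).map ψ) x (canAdd f φ M x t) =
      canAdd f φ N x (stalkMap ψ (f x) t) := by
  obtain ⟨V, hV, s, rfl⟩ := TopCat.Presheaf.exists_germ_eq (pshS M) t
  rw [canAdd_germ, stalkMap_germ, stalkMap_germ, canAdd_germ]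
  congr 1
  have h := (adj f φ).unit.naturality ψ
  exact (congr_app h V s).symm

/-- The image of the canonical map generates the stalk of the pullback. -/
theorem span_range_canAdd (M : SheafOfModules.{u} (rg B)) (x : T) :
    Submodule.span (A.presheaf.stalk x) (Set.range (canAdd f φ M x)) = ⊤ := by
  let S := Submodule.span (A.presheaf.stalk x) (Set.range (canAdd f φ M x))
  have h : S.mkQ = 0 := lift_unique f φ _ _ fun t => by
    rw [LinearMap.zero_apply, Submodule.mkQ_apply, Submodule.Quotient.mk_eq_zero]
    exact Submodule.subset_span ⟨t, rfl⟩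
  exact (Submodule.ker_mkQ S).symm.trans (by rw [h, LinearMap.ker_zero])

/-- The map induced on stalks by `f^* ψ` is the base change of the map induced by `ψ`. -/
theorem stalkMap_pullback_equiv {M N : SheafOfModules.{u} (rg B)} (ψ : M ⟶ N) (x : T) :
    letI := stalkAlg f φ x
    ∀ t : A.presheaf.stalk x ⊗[B.presheaf.stalk (f x)] (pshS M).stalk (f x),
      stalkMap ((pull f φ).map ψ) x (stalkPullbackEquiv f φ M x t) =
        stalkPullbackEquiv f φ N x ((stalkMap ψ (f x)).lTensor _ t) := by
  letI := stalkAlg f φ x
  intro t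
  induction t using TensorProduct.induction_on with
  | zero => simp only [map_zero]
  | add a b ha hb => simp only [map_add, ha, hb]
  | tmul a m =>
    rw [LinearMap.lTensor_tmul, stalkPullbackEquiv_tmul, stalkPullbackEquiv_tmul,
      LinearMap.map_smul]
    congr 1
    exact stalkMap_pullback_canAdd f φ ψ x m

end BaseChange

end Groth.Agent.Gaga.H974.RPull
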