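import Mathlib.Algebra.Category.ModuleCat.Sheaf
import Mathlib.Algebra.Category.ModuleCat.Stalk
import Mathlib.Topology.Sheaves.SheafCondition.UniqueGluing
import Mathlib.Topology.Sheaves.CommRingCat
import Mathlib.RingTheory.IsTensorProduct

/-!
# Sheaves of modules over a space with a sheaf of commutative rings: stalks and skyscrapers

`T` a topological space, `A` a sheaf of commutative rings on it; modules = `SheafOfModules (rg A)`,
`rg A` the underlying sheaf of rings.  For `x : T` and a module `Q` over the stalk `A_x` the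
skyscraper module `sky A x Q` and the bijection `(M ⟶ sky A x Q) ≃ (M_x →ₗ[A_x] Q)`.
(The scheme version is Groth.Agent.Fdesc.Skyscraper.)
-/

set_option autoImplicit false
set_option linter.unusedVariables false
set_option linter.unusedSectionVars false
universe u
open CategoryTheory TopologicalSpace Opposite

namespace Groth.Agent.Gaga.H974.RSky

section StalkDesc

variable {X : TopCat.{u}} (F : TopCat.Presheaf Ab.{u} X) (x : X) (A : Type u) [AddCommGroup A]

/-- Maps out of a stalk from a compatible family of maps on sections. -/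
noncomputable def stalkDesc (φ : ∀ (U : Opens X), x ∈ U → (F.obj (op U) →+ A))
    (hφ : ∀ (U V : Opens X) (i : U ⟶ V) (hU : x ∈ U) (s : F.obj (op V)),
      φ U hU (F.map i.op s) = φ V (leOfHom i hU) s) : F.stalk x →+ A :=
  (Limits.colimit.desc ((OpenNhds.inclusion x).op ⋙ F)
    (Limits.Cocone.mk (AddCommGrpCat.of A)
      { app := fun U => AddCommGrpCat.ofHom (φ U.unop.1 U.unop.2)
        naturality := fun U V i => by
          ext s
          exact hφ _ _ _ _ _ })).hom

theorem stalkDesc_germ (φ : ∀ (U : Opens X), x ∈ U → (F.obj (op U) →+ A))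
    (hφ : ∀ (U V : Opens X) (i : U ⟶ V) (hU : x ∈ U) (s : F.obj (op V)),
      φ U hU (F.map i.op s) = φ V (leOfHom i hU) s) (U : Opens X) (hU : x ∈ U) (s : F.obj (op U)) :
    stalkDesc F x A φ hφ (F.germ U x hU s) = φ U hU s := by
  have h := Limits.colimit.ι_desc (F := (OpenNhds.inclusion x).op ⋙ F)
    (Limits.Cocone.mk (AddCommGrpCat.of A)
      { app := fun U => AddCommGrpCat.ofHom (φ U.unop.1 U.unop.2)
        naturality := fun U V i => by
          ext s
          exact hφ _ _ _ _ _ }) (op ⟨U, hU⟩)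
  exact ConcreteCategory.congr_hom h s

theorem stalk_hom_ext {B : Type*} [AddCommGroup B] {f g : F.stalk x →+ B}
    (h : ∀ (U : Opens X) (hU : x ∈ U) (s : F.obj (op U)), f (F.germ U x hU s) = g (F.germ U x hU s)) :
    f = g := by
  ext t
  obtain ⟨U, hU, s, rfl⟩ := TopCat.Presheaf.exists_germ_eq F t
  exact h U hU s

end StalkDesc

/-- The sheaf of rings underlying a sheaf of commutative rings. -/
abbrev rg {T : TopCat.{u}} (A : TopCat.Sheaf CommRingCat.{u} T) : TopCat.Sheaf RingCat.{u} T :=
  (sheafCompose _ (forget₂ CommRingCat RingCat.{u})).obj A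

variable {T : TopCat.{u}} {A : TopCat.Sheaf CommRingCat.{u} T}

/-- The abelian presheaf of a presheaf of modules. -/
noncomputable abbrev psh (P : PresheafOfModules.{u} (rg A).obj) : TopCat.Presheaf Ab.{u} T :=
  PresheafOfModules.presheaf P

/-- The stalk of a presheaf of modules is a module over the stalk of the rings. -/
noncomputable instance preStalkModule (P : PresheafOfModules.{u} (rg A).obj) (x : T) :
    Module (A.presheaf.stalk x) ((psh P).stalk x) :=
  inferInstanceAs (Module (A.presheaf.stalk x) ↑(TopCat.Presheaf.stalk (PresheafOfModules.presheaf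
    (R := A.presheaf ⋙ forget₂ CommRingCat RingCat)
    (show PresheafOfModules (A.presheaf ⋙ forget₂ CommRingCat RingCat) from P)) x))

noncomputable instance preSecModule (P : PresheafOfModules.{u} (rg A).obj) (U : Opens T) :
    Module (A.presheaf.obj (op U)) ((psh P).obj (op U)) :=
  inferInstanceAs (Module ((rg A).obj.obj (op U)) (P.obj (op U)))

theorem pre_germ_smul (P : PresheafOfModules.{u} (rg A).obj) (x : T) (U : Opens T) (hx : x ∈ U)
    (r : A.presheaf.obj (op U)) (m : (psh P).obj (op U)) :
    (psh P).germ U x hx (r • m) = A.presheaf.germ U x hx r • (psh P).germ U x hx m :=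
  PresheafOfModules.germ_smul (R := A.presheaf)
    (show PresheafOfModules (A.presheaf ⋙ forget₂ CommRingCat RingCat) from P) x U hx r m

/-- every pair (scalar, element) of the stalks comes from a common neighbourhood. -/
theorem exists_common (P : PresheafOfModules.{u} (rg A).obj) (x : T) (r : A.presheaf.stalk x)
    (s : (psh P).stalk x) : ∃ (U : Opens T) (hU : x ∈ U) (r' : A.presheaf.obj (op U))
      (s' : (psh P).obj (op U)),
      A.presheaf.germ U x hU r' = r ∧ (psh P).germ U x hU s' = s := by
  obtain ⟨U, hU, m, rfl⟩ := TopCat.Presheaf.exists_germ_eq (psh P) s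
  obtain ⟨V, hV, r, rfl⟩ := TopCat.Presheaf.exists_germ_eq A.presheaf r
  refine ⟨U ⊓ V, ⟨hU, hV⟩, A.presheaf.map (homOfLE inf_le_right).op r,
    (psh P).map (homOfLE inf_le_left).op m, ?_, ?_⟩
  · exact TopCat.Presheaf.germ_res_apply A.presheaf (homOfLE inf_le_right) x ⟨hU, hV⟩ r
  · exact TopCat.Presheaf.germ_res_apply (psh P) (homOfLE inf_le_left) x ⟨hU, hV⟩ m

section Sky

variable (A) (x : T) (Q : Type u) [AddCommGroup Q] [Module (A.presheaf.stalk x) Q]

/-- Sections over `U` of the skyscraper module. -/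
def Sec (U : Opens T) : Type u := PLift (x ∈ U) → Q

noncomputable instance (U : Opens T) : AddCommGroup (Sec x Q U) :=
  inferInstanceAs (AddCommGroup (PLift (x ∈ U) → Q))

variable {x Q} in
/-- The module structure on the sections of the skyscraper. -/
@[reducible] noncomputable def secModule (U : Opens T) : Module (A.presheaf.obj (op U)) (Sec x Q U) where
  smul r s := fun h => A.presheaf.germ U x h.down r • s h
  one_smul s := by
    funext h
    change A.presheaf.germ U x h.down 1 • s h = s h
    rw [map_one, one_smul]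
  mul_smul r r' s := by
    funext h
    change A.presheaf.germ U x h.down (r * r') • s h =
      A.presheaf.germ U x h.down r • A.presheaf.germ U x h.down r' • s h
    rw [map_mul, mul_smul]
  smul_zero r := by
    funext h
    change A.presheaf.germ U x h.down r • (0 : Q) = 0
    rw [smul_zero]
  smul_add r s t := by
    funext h
    change A.presheaf.germ U x h.down r • (s h + t h) =
      A.presheaf.germ U x h.down r • s h + A.presheaf.germ U x h.down r • t h
    rw [smul_add]
  add_smul r r' s := by
    funext h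
    change A.presheaf.germ U x h.down (r + r') • s h =
      A.presheaf.germ U x h.down r • s h + A.presheaf.germ U x h.down r' • s h
    rw [map_add, add_smul]
  zero_smul s := by
    funext h
    change A.presheaf.germ U x h.down 0 • s h = 0
    rw [map_zero, zero_smul]

/-- The abelian presheaf underlying the skyscraper module. -/
noncomputable def skyAb (x : T) (Q : Type u) [AddCommGroup Q] : TopCat.Presheaf Ab.{u} T where
  obj U := AddCommGrpCat.of (Sec x Q U.unop)
  map {U V} i := AddCommGrpCat.ofHom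
    { toFun := fun s h => s ⟨leOfHom i.unop h.down⟩
      map_zero' := rfl
      map_add' := fun _ _ => rfl }
  map_id U := rfl
  map_comp f g := rfl

theorem skyAb_map_apply {U V : (Opens T)ᵒᵖ} (i : U ⟶ V) (s : Sec x Q U.unop) (h : PLift (x ∈ V.unop)) :
    ((skyAb x Q).map i s : Sec x Q V.unop) h = s ⟨leOfHom i.unop h.down⟩ := rfl

/-- The presheaf of modules. -/
noncomputable def skyPre : PresheafOfModules.{u} (rg A).obj :=
  letI : ∀ U : (Opens T)ᵒᵖ, Module ((rg A).obj.obj U) ((skyAb x Q).obj U) :=
    fun U => secModule A (x := x) (Q := Q) U.unop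
  PresheafOfModules.ofPresheaf (skyAb x Q) (by
    intro U V f r m
    funext h
    change A.presheaf.germ U.unop x (leOfHom f.unop h.down) r • (m : Sec x Q U.unop) ⟨leOfHom f.unop h.down⟩ =
      A.presheaf.germ V.unop x h.down (A.presheaf.map f r) • (m : Sec x Q U.unop) ⟨leOfHom f.unop h.down⟩
    congr 1
    exact (TopCat.Presheaf.germ_res_apply A.presheaf f.unop x h.down r).symm)

theorem skyAb_isSheaf : Presheaf.IsSheaf (Opens.grothendieckTopology T) (skyAb x Q) := by
  refine (TopCat.Presheaf.isSheaf_iff_isSheafUniqueGluing (skyAb x Q)).mpr ?_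
  intro ι U sf hsf
  have key : ∀ (i j : ι) (hi : x ∈ U i) (hj : x ∈ U j),
      (sf i : Sec x Q (U i)) ⟨hi⟩ = (sf j : Sec x Q (U j)) ⟨hj⟩ := fun i j hi hj =>
    congrFun (hsf i j : (_ : Sec x Q (U i ⊓ U j)) = _) ⟨⟨hi, hj⟩⟩
  refine ⟨(fun h => (sf (Opens.mem_iSup.mp h.down).choose : Sec x Q _)
    ⟨(Opens.mem_iSup.mp h.down).choose_spec⟩ : Sec x Q (iSup U)), ?_, ?_⟩
  · intro i
    refine (funext fun h => ?_ : (_ : Sec x Q (U i)) = _)
    exact key _ _ _ h.down
  · intro t ht
    refine (funext fun h => ?_ : (_ : Sec x Q (iSup U)) = _)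
    exact congrFun (ht (Opens.mem_iSup.mp h.down).choose : (_ : Sec x Q _) = _)
      ⟨(Opens.mem_iSup.mp h.down).choose_spec⟩

/-- The skyscraper module. -/
noncomputable def sky : SheafOfModules.{u} (rg A) := ⟨skyPre A x Q, skyAb_isSheaf x Q⟩

theorem sky_smul_apply (U : Opens T) (r : A.presheaf.obj (op U))
    (s : ((skyPre A x Q).obj (op U))) (h : PLift (x ∈ U)) :
    (HSMul.hSMul (α := (rg A).obj.obj (op U)) (β := (skyPre A x Q).obj (op U)) r s : Sec x Q U) h =
      A.presheaf.germ U x h.down r • (s : Sec x Q U) h := rfl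

end Sky

section HomEquiv

variable (x : T) (Q : Type u) [AddCommGroup Q] [Module (A.presheaf.stalk x) Q]

/-- Maps out of the stalk of a presheaf of modules. -/
noncomputable def stalkDescₗ (P : PresheafOfModules.{u} (rg A).obj) (x : T) (Q : Type u)
    [AddCommGroup Q] [Module (A.presheaf.stalk x) Q]
    (φ : ∀ (U : Opens T), x ∈ U → ((psh P).obj (op U) →+ Q))
    (hφ : ∀ (U V : Opens T) (i : U ⟶ V) (hU : x ∈ U) (s : (psh P).obj (op V)),
      φ U hU ((psh P).map i.op s) = φ V (leOfHom i hU) s)
    (hφ' : ∀ (U : Opens T) (hU : x ∈ U) (r : A.presheaf.obj (op U)) (s : (psh P).obj (op U)),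
      φ U hU (r • s) = A.presheaf.germ U x hU r • φ U hU s) :
    (psh P).stalk x →ₗ[A.presheaf.stalk x] Q where
  toFun := stalkDesc (psh P) x Q φ hφ
  map_add' := map_add _
  map_smul' r s := by
    obtain ⟨U, hU, r, s, rfl, rfl⟩ := exists_common P x r s
    rw [← pre_germ_smul]
    erw [stalkDesc_germ, stalkDesc_germ]
    exact hφ' U hU r s

theorem stalkDescₗ_germ (P : PresheafOfModules.{u} (rg A).obj) (x : T) (Q : Type u)
    [AddCommGroup Q] [Module (A.presheaf.stalk x) Q]
    (φ : ∀ (U : Opens T), x ∈ U → ((psh P).obj (op U) →+ Q))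
    (hφ : ∀ (U V : Opens T) (i : U ⟶ V) (hU : x ∈ U) (s : (psh P).obj (op V)),
      φ U hU ((psh P).map i.op s) = φ V (leOfHom i hU) s)
    (hφ' : ∀ (U : Opens T) (hU : x ∈ U) (r : A.presheaf.obj (op U)) (s : (psh P).obj (op U)),
      φ U hU (r • s) = A.presheaf.germ U x hU r • φ U hU s)
    (U : Opens T) (hU : x ∈ U) (s : (psh P).obj (op U)) :
    stalkDescₗ P x Q φ hφ hφ' ((psh P).germ U x hU s) = φ U hU s :=
  stalkDesc_germ (psh P) x Q φ hφ U hU s

variable {x Q}

/-- The linear map out of the stalk given by a morphism to the skyscraper. -/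
noncomputable def ofSkyPre {P : PresheafOfModules.{u} (rg A).obj} (g : P ⟶ skyPre A x Q) :
    (psh P).stalk x →ₗ[A.presheaf.stalk x] Q :=
  stalkDescₗ P x Q
    (fun U hU => (Pi.evalAddMonoidHom (fun _ : PLift (x ∈ U) => Q) ⟨hU⟩).comp
      ((g.app (op U)).hom.toAddMonoidHom : P.obj (op U) →+ Sec x Q U))
    (fun U V i hU s => congrFun
      (PresheafOfModules.naturality_apply g i.op s : (_ : Sec x Q U) = _) ⟨hU⟩)
    (fun U hU r s => congrFun ((g.app (op U)).hom.map_smul r s : (_ : Sec x Q U) = _) ⟨hU⟩)

theorem ofSkyPre_germ {P : PresheafOfModules.{u} (rg A).obj} (g : P ⟶ skyPre A x Q) (U : Opens T)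
    (hU : x ∈ U) (s : (psh P).obj (op U)) :
    ofSkyPre g ((psh P).germ U x hU s) = (g.app (op U) s : Sec x Q U) ⟨hU⟩ :=
  stalkDescₗ_germ P x Q _ _ _ U hU s

/-- The morphism to the skyscraper given by a linear map out of the stalk. -/
noncomputable def toSkyPre {P : PresheafOfModules.{u} (rg A).obj}
    (g : (psh P).stalk x →ₗ[A.presheaf.stalk x] Q) : P ⟶ skyPre A x Q where
  app U := ModuleCat.ofHom (Y := (skyPre A x Q).obj U)
    { toFun := fun s => (fun h => g ((psh P).germ U.unop x h.down s) : Sec x Q U.unop)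
      map_add' := fun s t => by
        refine (funext fun h => ?_ : (_ : Sec x Q U.unop) = _)
        exact (congrArg g (((psh P).germ U.unop x h.down).hom.map_add s t)).trans (g.map_add _ _)
      map_smul' := fun r s => by
        refine (funext fun h => ?_ : (_ : Sec x Q U.unop) = _)
        refine (congrArg g (pre_germ_smul P x U.unop h.down r s)).trans ?_
        exact g.map_smul _ _ }
  naturality {U V} f := by
    ext s
    refine (funext fun h => ?_ : (_ : Sec x Q V.unop) = _)
    exact congrArg g (TopCat.Presheaf.germ_res_apply (psh P) f.unop x h.down s)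

theorem toSkyPre_app_apply {P : PresheafOfModules.{u} (rg A).obj}
    (g : (psh P).stalk x →ₗ[A.presheaf.stalk x] Q) (U : Opens T) (s : (psh P).obj (op U))
    (h : PLift (x ∈ U)) :
    ((toSkyPre g).app (op U) s : Sec x Q U) h = g ((psh P).germ U x h.down s) := rfl

theorem ofSkyPre_toSkyPre {P : PresheafOfModules.{u} (rg A).obj}
    (g : (psh P).stalk x →ₗ[A.presheaf.stalk x] Q) : ofSkyPre (toSkyPre g) = g := by
  ext t
  obtain ⟨U, hU, s, rfl⟩ := TopCat.Presheaf.exists_germ_eq (psh P) t
  rw [ofSkyPre_germ, toSkyPre_app_apply]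

theorem toSkyPre_ofSkyPre {P : PresheafOfModules.{u} (rg A).obj} (g : P ⟶ skyPre A x Q) :
    toSkyPre (ofSkyPre g) = g := by
  ext U s
  refine (funext fun h => ?_ : (_ : Sec x Q U.unop) = _)
  exact ofSkyPre_germ g U.unop h.down s

end HomEquiv

section Sheaf

variable {x : T} {Q : Type u} [AddCommGroup Q] [Module (A.presheaf.stalk x) Q]

/-- The abelian presheaf of a sheaf of modules. -/
noncomputable abbrev pshS (M : SheafOfModules.{u} (rg A)) : TopCat.Presheaf Ab.{u} T := psh M.val

/-- The linear map out of the stalk given by a morphism to the skyscraper (sheaf level). -/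
noncomputable def ofSky {M : SheafOfModules.{u} (rg A)} (g : M ⟶ sky A x Q) :
    (pshS M).stalk x →ₗ[A.presheaf.stalk x] Q :=
  ofSkyPre (P := M.val) g.val

theorem ofSky_germ {M : SheafOfModules.{u} (rg A)} (g : M ⟶ sky A x Q) (U : Opens T) (hU : x ∈ U)
    (s : (pshS M).obj (op U)) :
    ofSky g ((pshS M).germ U x hU s) = (g.val.app (op U) s : Sec x Q U) ⟨hU⟩ :=
  ofSkyPre_germ (P := M.val) g.val U hU s

/-- The morphism to the skyscraper given by a linear map out of the stalk (sheaf level). -/
noncomputable def toSky {M : SheafOfModules.{u} (rg A)} (g : (pshS M).stalk x →ₗ[A.presheaf.stalk x] Q) :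
    M ⟶ sky A x Q :=
  ⟨toSkyPre (P := M.val) g⟩

theorem toSky_app_apply {M : SheafOfModules.{u} (rg A)}
    (g : (pshS M).stalk x →ₗ[A.presheaf.stalk x] Q)
    (U : Opens T) (s : (pshS M).obj (op U)) (h : PLift (x ∈ U)) :
    ((toSky g).val.app (op U) s : Sec x Q U) h = g ((pshS M).germ U x h.down s) := rfl

theorem ofSky_toSky {M : SheafOfModules.{u} (rg A)} (g : (pshS M).stalk x →ₗ[A.presheaf.stalk x] Q) :
    ofSky (toSky g) = g :=
  ofSkyPre_toSkyPre (P := M.val) g

theorem toSky_ofSky {M : SheafOfModules.{u} (rg A)} (g : M ⟶ sky A x Q) : toSky (ofSky g) = g :=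
  SheafOfModules.hom_ext (toSkyPre_ofSkyPre (P := M.val) g.val)

/-- Morphisms from a module to the skyscraper module of `Q` at `x` are the linear maps from
the stalk at `x` to `Q`. -/
noncomputable def skyEquiv (M : SheafOfModules.{u} (rg A)) :
    (M ⟶ sky A x Q) ≃ ((pshS M).stalk x →ₗ[A.presheaf.stalk x] Q) where
  toFun := ofSky
  invFun := toSky
  left_inv := toSky_ofSky
  right_inv := ofSky_toSky

end Sheaf

section StalkMap

/-- The map on stalks induced by a morphism of modules. -/
noncomputable def stalkMap {M N : SheafOfModules.{u} (rg A)} (φ : M ⟶ N) (x : T) :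
    (pshS M).stalk x →ₗ[A.presheaf.stalk x] (pshS N).stalk x :=
  stalkDescₗ M.val x ((pshS N).stalk x)
    (fun U hU => ((pshS N).germ U x hU).hom.comp (φ.val.app (op U)).hom.toAddMonoidHom)
    (fun U V i hU s => by
      have h := PresheafOfModules.naturality_apply φ.val i.op s
      exact (congrArg ((pshS N).germ U x hU) h).trans
        (TopCat.Presheaf.germ_res_apply (pshS N) i x hU (φ.val.app (op V) s)))
    (fun U hU r s => (congrArg ((pshS N).germ U x hU) ((φ.val.app (op U)).hom.map_smul r s)).trans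
      (pre_germ_smul N.val x U hU r (φ.val.app (op U) s)))

theorem stalkMap_germ {M N : SheafOfModules.{u} (rg A)} (φ : M ⟶ N) (x : T) (U : Opens T) (hU : x ∈ U)
    (s : (pshS M).obj (op U)) :
    stalkMap φ x ((pshS M).germ U x hU s) = (pshS N).germ U x hU (φ.val.app (op U) s) :=
  stalkDescₗ_germ M.val x _ _ _ _ U hU s

theorem stalkMap_eq {M N : SheafOfModules.{u} (rg A)} (φ : M ⟶ N) (x : T) (t : (pshS M).stalk x) :
    stalkMap φ x t = (TopCat.Presheaf.stalkFunctor Ab x).map
      ((PresheafOfModules.toPresheaf _).map φ.val) t := by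
  obtain ⟨U, hU, s, rfl⟩ := TopCat.Presheaf.exists_germ_eq (pshS M) t
  rw [stalkMap_germ]
  exact (TopCat.Presheaf.stalkFunctor_map_germ_apply U x hU
    ((PresheafOfModules.toPresheaf _).map φ.val) s).symm

theorem stalkMap_id (M : SheafOfModules.{u} (rg A)) (x : T) : stalkMap (𝟙 M) x = LinearMap.id := by
  ext t
  obtain ⟨U, hU, s, rfl⟩ := TopCat.Presheaf.exists_germ_eq (pshS M) t
  rw [stalkMap_germ]; rfl

theorem stalkMap_comp {M N K : SheafOfModules.{u} (rg A)} (φ : M ⟶ N) (ψ : N ⟶ K) (x : T) :
    stalkMap (φ ≫ ψ) x = (stalkMap ψ x).comp (stalkMap φ x) := by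
  ext t
  obtain ⟨U, hU, s, rfl⟩ := TopCat.Presheaf.exists_germ_eq (pshS M) t
  rw [LinearMap.comp_apply, stalkMap_germ, stalkMap_germ, stalkMap_germ]; rfl

theorem stalkMap_zero (M N : SheafOfModules.{u} (rg A)) (x : T) :
    stalkMap (0 : M ⟶ N) x = 0 := by
  ext t
  obtain ⟨U, hU, s, rfl⟩ := TopCat.Presheaf.exists_germ_eq (pshS M) t
  rw [stalkMap_germ]
  exact map_zero ((pshS N).germ U x hU).hom

/-- Isomorphic modules have isomorphic stalks. -/
noncomputable def stalkIso {M N : SheafOfModules.{u} (rg A)} (e : M ≅ N) (x : T) :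
    (pshS M).stalk x ≃ₗ[A.presheaf.stalk x] (pshS N).stalk x :=
  LinearEquiv.ofLinearMap (stalkMap e.hom x) (stalkMap e.inv x)
    (by rw [← stalkMap_comp, e.inv_hom_id, stalkMap_id])
    (by rw [← stalkMap_comp, e.hom_inv_id, stalkMap_id])

end StalkMap

end Groth.Agent.Gaga.H974.RSky
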